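import Cfsg.Agent.Lib.Helper65.S4415.ExtDefs

set_option autoImplicit false

/-!
# S4415, package [EXT], sub-package [X-R3]: `R` has order 32 and is of extraspecial type

Every element of `R` acts on the quaternion model as `h ↦ p h γ` with `p, γ ∈ Q8` (`QFacts`).
The classes `± (p, γ)` are 32 in number and `r ↦ class` is injective, so `|R| ≤ 32`; the
subgroup `P` of the elements acting as `h ↦ p h` has at least 8 elements and meets the four-group
`Q` trivially, so `|R| ≥ 32`.
-/

namespace Cfsg.Agent.Lib.Helper85.S4415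

open Cfsg.Agent.Lib.Helper78.S4415 Cfsg.Agent.Lib.Helper65.S4415

universe u v

/-- decidable equality on the 81 quaternions -/
def hDecEq : DecidableEq H := (Quaternion.equivProd (ZMod 3)).decidableEq

/-- the 81 quaternions -/
def hFintype : Fintype H := Fintype.ofEquiv _ (Quaternion.equivProd (ZMod 3)).symm

attribute [local instance] hDecEq hFintype

/-- `Q8` is decidable -/
def q8Dec (p : H) : Decidable (Q8 p) := by unfold Q8; infer_instance

attribute [local instance] q8Dec

/-- `1, i, j, k` -/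
def elt : Fin 4 → H := ![1, qi, qj, qk]

/-- the right multiplier of a class -/
def rm (k : Fin 4 × Fin 4 × Bool) : H := if k.2.2 then -(elt k.2.1) else elt k.2.1

/-- the eight elements of `Q8` -/
def m8 : Fin 8 → H := ![1, -1, qi, -qi, qj, -qj, qk, -qk]

section fin

set_option maxRecDepth 100000

theorem q8_sq : ∀ p : H, Q8 p → p * p = 1 ∨ p * p = -1 := by decide

theorem q8_comm : ∀ p : H, Q8 p → ∀ p' : H, Q8 p' → p * p' = p' * p ∨ p * p' = -(p' * p) := by
  decide

theorem q8_cent : ∀ p : H, Q8 p → p * qi = qi * p → p * qj = qj * p → p = 1 ∨ p = -1 := by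
  decide

theorem q8_inv : ∀ p : H, Q8 p → ∃ p' : H, Q8 p' ∧ p' * p = 1 ∧ p * p' = 1 := by decide

theorem q8_mul : ∀ p : H, Q8 p → ∀ p' : H, Q8 p' → Q8 (p * p') := by decide

theorem q8_fix : ∀ p : H, Q8 p → p ≠ 1 → ∀ h : H, p * h = h → h = 0 := by decide

theorem q8_nf : ∀ p : H, Q8 p → ∃ a : Fin 4, p = elt a ∨ p = -(elt a) := by decide

theorem m8_q8 : ∀ i : Fin 8, Q8 (m8 i) := by decide

theorem m8_inj : ∀ i j : Fin 8, m8 i = m8 j → i = j := by decide

theorem q8_qi : Q8 qi := by decide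

theorem q8_qj : Q8 qj := by decide

theorem h_neg_qi : (-1 : H) * qi = -qi := by decide

theorem h_neg_qj : (-1 : H) * qj = -qj := by decide

theorem h_qi_qj : qi * qj = qk := by decide

theorem h_neg_qk : (-1 : H) * (qi * qj) = -qk := by decide

theorem elt_zero : elt 0 = 1 := by decide

theorem rm_one : rm ((0 : Fin 4), (1 : Fin 4), false) = qi := by decide

theorem rm_two : rm ((0 : Fin 4), (2 : Fin 4), false) = qj := by decide

end fin

section lr

variable {G : Type u} [Group G] {V : Type v} [AddCommGroup V] [Module (ZMod 3) V]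
  {ρ : Representation (ZMod 3) G V} {φ : V ≃ₗ[ZMod 3] H}

theorem lr_one : LR ρ φ 1 1 1 := by
  intro w
  rw [map_one, Module.End.one_apply, one_mul, mul_one]

theorem lr_mul {g g' : G} {α γ α' γ' : H} (h : LR ρ φ g α γ) (h' : LR ρ φ g' α' γ') :
    LR ρ φ (g * g') (α * α') (γ' * γ) := by
  intro w
  rw [map_mul, Module.End.mul_apply, h, h']
  simp only [mul_assoc]

theorem lr_congr {g : G} {α γ α' γ' : H} (h : LR ρ φ g α γ) (hα : α = α') (hγ : γ = γ') :
    LR ρ φ g α' γ' := by
  subst hα; subst hγ; exact h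

theorem lr_eq (hf : Function.Injective ρ) {g g' : G} {α γ α' γ' : H} (h : LR ρ φ g α γ)
    (h' : LR ρ φ g' α' γ') (hh : ∀ t : H, α * t * γ = α' * t * γ') : g = g' := by
  apply hf
  apply LinearMap.ext
  intro w
  apply φ.injective
  rw [h w, h' w, hh]

theorem lr_unique {g : G} {α γ α' γ' : H} (h : LR ρ φ g α γ) (h' : LR ρ φ g α' γ') (t : H) :
    α * t * γ = α' * t * γ' := by
  have e1 := h (φ.symm t)
  have e2 := h' (φ.symm t)
  rw [LinearEquiv.apply_symm_apply] at e1 e2
  rw [← e1, e2]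

theorem lr_inv {g : G} {p p' : H} (h : LR ρ φ g p 1) (hp : p' * p = 1) : LR ρ φ g⁻¹ p' 1 := by
  intro w
  have e := h (ρ g⁻¹ w)
  rw [← Module.End.mul_apply, ← map_mul, mul_inv_cancel, map_one, Module.End.one_apply,
    mul_one] at e
  rw [mul_one, e, ← mul_assoc, hp, one_mul]

end lr

/-- [X-R3] -/
theorem pkgXR3 : PkgXR3.{u, v} := by
  intro _ff G _ _ V _ _ _ ρ R b Q N z x y φ hC hQF
  have hfaith := hC.setup.faith
  obtain ⟨hzN, -, hzneg, -⟩ := hC.extra
  have hzR : z ∈ R := hC.NR hzN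
  have hxR : x ∈ R := hC.NR hC.xN
  have hyR : y ∈ R := hC.NR hC.yN
  have lz : LR ρ φ z (-1) 1 := by
    intro w
    rw [hzneg, map_neg, mul_one, neg_one_mul]
  have lx : LR ρ φ x qi 1 := by
    intro w
    rw [hC.mx, mul_one]
  have ly : LR ρ φ y qj 1 := by
    intro w
    rw [hC.my, mul_one]
  -- the class map
  have hcls : ∀ r ∈ R, ∃ k : Fin 4 × Fin 4 × Bool, LR ρ φ r (elt k.1) (rm k) := by
    intro r hr
    obtain ⟨p, γ, hp, hγ, hl⟩ := hQF r hr
    obtain ⟨a, ha⟩ := q8_nf p hp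
    obtain ⟨c, hc⟩ := q8_nf γ hγ
    rcases ha with rfl | rfl <;> rcases hc with rfl | rfl
    · exact ⟨(a, c, false), hl⟩
    · exact ⟨(a, c, true), hl⟩
    · refine ⟨(a, c, true), ?_⟩
      intro w
      rw [hl w]
      show -(elt a) * φ w * elt c = elt a * φ w * -(elt c)
      rw [neg_mul, neg_mul, mul_neg]
    · refine ⟨(a, c, false), ?_⟩
      intro w
      rw [hl w]
      show -(elt a) * φ w * -(elt c) = elt a * φ w * elt c
      rw [neg_mul, neg_mul, mul_neg, neg_neg]
  choose! f hf using hcls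
  have hfinj : Function.Injective (fun r : ↥R => f r.1) := by
    intro r r' hrr
    apply Subtype.ext
    have h1 := hf r.1 r.2
    have h2 := hf r'.1 r'.2
    have hrr' : f r.1 = f r'.1 := hrr
    rw [hrr'] at h1
    exact lr_eq hfaith h1 h2 (fun _ => rfl)
  have hK : Nat.card (Fin 4 × Fin 4 × Bool) = 32 := by
    rw [Nat.card_eq_fintype_card]
    rfl
  have hle : Nat.card ↥R ≤ 32 := by
    have h := Nat.card_le_card_of_injective _ hfinj
    rw [hK] at h
    exact h
  -- the subgroup of the left multiplications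
  obtain ⟨P, hP⟩ : ∃ P : Subgroup G, ∀ g, g ∈ P ↔ (g ∈ R ∧ ∃ p, Q8 p ∧ LR ρ φ g p 1) :=
    ⟨{ carrier := {g | g ∈ R ∧ ∃ p, Q8 p ∧ LR ρ φ g p 1}
       mul_mem' := by
         rintro g g' ⟨hg, p, hp, hl⟩ ⟨hg', p', hp', hl'⟩
         exact ⟨mul_mem hg hg', p * p', q8_mul p hp p' hp',
           lr_congr (lr_mul hl hl') rfl (mul_one 1)⟩
       one_mem' := ⟨one_mem R, 1, Or.inl rfl, lr_one⟩
       inv_mem' := by
         rintro g ⟨hg, p, hp, hl⟩
         obtain ⟨p', hp', hpp, -⟩ := q8_inv p hp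
         exact ⟨inv_mem hg, p', hp', lr_inv hl hpp⟩ }, fun g => Iff.rfl⟩
  have hPex : ∀ p : H, Q8 p → ∃ g, g ∈ P ∧ LR ρ φ g p 1 := by
    intro p hp
    have hzP : z ∈ P := (hP z).mpr ⟨hzR, -1, Or.inr (Or.inl rfl), lz⟩
    have hxP : x ∈ P := (hP x).mpr ⟨hxR, qi, q8_qi, lx⟩
    have hyP : y ∈ P := (hP y).mpr ⟨hyR, qj, q8_qj, ly⟩
    rcases hp with rfl | rfl | rfl | rfl | rfl | rfl | rfl | rfl
    · exact ⟨1, one_mem P, lr_one⟩
    · exact ⟨z, hzP, lz⟩
    · exact ⟨x, hxP, lx⟩
    · exact ⟨z * x, mul_mem hzP hxP, lr_congr (lr_mul lz lx) h_neg_qi (mul_one 1)⟩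
    · exact ⟨y, hyP, ly⟩
    · exact ⟨z * y, mul_mem hzP hyP, lr_congr (lr_mul lz ly) h_neg_qj (mul_one 1)⟩
    · exact ⟨x * y, mul_mem hxP hyP, lr_congr (lr_mul lx ly) h_qi_qj (mul_one 1)⟩
    · exact ⟨z * (x * y), mul_mem hzP (mul_mem hxP hyP),
        lr_congr (lr_mul lz (lr_mul lx ly)) h_neg_qk (by rw [mul_one, mul_one])⟩
  have hP8 : 8 ≤ Nat.card ↥P := by
    choose s hs using fun i : Fin 8 => hPex (m8 i) (m8_q8 i)
    have hsinj : Function.Injective (fun i : Fin 8 => (⟨s i, (hs i).1⟩ : ↥P)) := by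
      intro i j hij
      have hij' : s i = s j := congrArg Subtype.val hij
      have h1 := (hs i).2
      have h2 := (hs j).2
      rw [hij'] at h1
      have h3 := lr_unique h1 h2 1
      rw [mul_one, mul_one, mul_one, mul_one] at h3
      exact m8_inj i j h3
    have h := Nat.card_le_card_of_injective _ hsinj
    rw [Nat.card_fin] at h
    exact h
  -- the frame
  obtain ⟨q₁, q₂, w₁, w₂, w₃, -, -, -, -, -, -, hQall, -, -, -, -, -, hw1, h11, -, h13, -, h22,
    h23, -, hind⟩ := hC.frame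
  have hw2 : w₂ ≠ 0 := by
    intro h0
    have h := hind 0 0 1 0 (map_zero _) (map_zero _) (by rw [h0]; simp)
    exact absurd h.2.2.1 (by decide)
  have hw3 : w₃ ≠ 0 := by
    intro h0
    have h := hind 0 0 0 1 (map_zero _) (map_zero _) (by rw [h0]; simp)
    exact absurd h.2.2.2 (by decide)
  have hdisj : Disjoint P Q := by
    rw [Subgroup.disjoint_def]
    intro g hgP hgQ
    obtain ⟨-, p, hp, hl⟩ := (hP g).mp hgP
    have key : ∀ w : V, w ≠ 0 → ρ g w = w → g = 1 := by
      intro w hw hfix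
      have h1 := hl w
      rw [hfix, mul_one] at h1
      by_cases hp1 : p = 1
      · subst hp1
        exact lr_eq hfaith hl lr_one (fun _ => rfl)
      · exfalso
        have h2 := q8_fix p hp hp1 (φ w) h1.symm
        exact hw (φ.map_eq_zero_iff.mp h2)
    rcases hQall g hgQ with h | h | h | h
    · exact h
    · exact key w₁ hw1 (by rw [h]; exact h11)
    · exact key w₂ hw2 (by rw [h]; exact h22)
    · apply key w₃ hw3
      rw [h, map_mul, Module.End.mul_apply, h23, map_neg, h13, neg_neg]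
  have hge : 32 ≤ Nat.card ↥R := by
    have hinj : Function.Injective (fun g : ↥P × ↥Q =>
        (⟨g.1.1 * g.2.1, mul_mem ((hP _).mp g.1.2).1 (hC.setup.QR g.2.2)⟩ : ↥R)) := by
      intro a c hac
      exact Subgroup.mul_injective_of_disjoint hdisj (congrArg Subtype.val hac)
    have h := Nat.card_le_card_of_injective _ hinj
    rw [Nat.card_prod, hC.setup.Q4] at h
    omega
  have hcard : Nat.card ↥R = 32 := le_antisymm hle hge
  have hfbij : Function.Bijective (fun r : ↥R => f r.1) :=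
    (Nat.bijective_iff_injective_and_card _).mpr ⟨hfinj, by rw [hcard, hK]⟩
  obtain ⟨si, hsi⟩ := hfbij.2 ((0 : Fin 4), (1 : Fin 4), false)
  obtain ⟨sj, hsj⟩ := hfbij.2 ((0 : Fin 4), (2 : Fin 4), false)
  have lsi : LR ρ φ si.1 1 qi := by
    have h := hf si.1 si.2
    have hsi' : f si.1 = ((0 : Fin 4), (1 : Fin 4), false) := hsi
    rw [hsi'] at h
    exact lr_congr h elt_zero rm_one
  have lsj : LR ρ φ sj.1 1 qj := by
    have h := hf sj.1 sj.2
    have hsj' : f sj.1 = ((0 : Fin 4), (2 : Fin 4), false) := hsj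
    rw [hsj'] at h
    exact lr_congr h elt_zero rm_two
  -- elements acting as `± 1`
  have h_one : ∀ (g : G) (α γ : H), LR ρ φ g α γ → (α = 1 ∨ α = -1) → (γ = 1 ∨ γ = -1) →
      g = 1 ∨ g = z := by
    intro g α γ hl hα hγ
    rcases hα with rfl | rfl <;> rcases hγ with rfl | rfl
    · left; exact lr_eq hfaith hl lr_one (fun _ => rfl)
    · right; exact lr_eq hfaith hl lz (fun t => by simp)
    · right; exact lr_eq hfaith hl lz (fun _ => rfl)
    · left; exact lr_eq hfaith hl lr_one (fun t => by simp)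
  have hsq : ∀ r ∈ R, r * r = 1 ∨ r * r = z := by
    intro r hr
    obtain ⟨p, γ, hp, hγ, hl⟩ := hQF r hr
    exact h_one _ _ _ (lr_mul hl hl) (q8_sq p hp) (q8_sq γ hγ)
  have hcomm : ∀ r ∈ R, ∀ r' ∈ R, r * r' = r' * r ∨ r * r' = z * r' * r := by
    intro r hr r' hr'
    obtain ⟨p, γ, hp, hγ, hl⟩ := hQF r hr
    obtain ⟨p', γ', hp', hγ', hl'⟩ := hQF r' hr'
    have h1 := lr_mul hl hl'
    have h2 := lr_mul hl' hl
    have h3 := lr_mul (lr_mul lz hl') hl
    rcases q8_comm p hp p' hp' with e1 | e1 <;> rcases q8_comm γ' hγ' γ hγ with e2 | e2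
    · left; exact lr_eq hfaith h1 h2 (fun t => by rw [e1, e2])
    · right; exact lr_eq hfaith h1 h3 (fun t => by rw [e1, e2]; simp [mul_assoc])
    · right; exact lr_eq hfaith h1 h3 (fun t => by rw [e1, e2]; simp [mul_assoc])
    · left; exact lr_eq hfaith h1 h2 (fun t => by rw [e1, e2]; simp [mul_assoc])
  have hcen : ∀ r ∈ R, (∀ r' ∈ R, r * r' = r' * r) → r = 1 ∨ r = z := by
    intro r hr hc
    obtain ⟨p, γ, hp, hγ, hl⟩ := hQF r hr
    obtain ⟨p', -, hpp1, -⟩ := q8_inv p hp
    obtain ⟨γ', -, -, hγγ2⟩ := q8_inv γ hγ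
    have hpi : p * qi = qi * p := by
      have h1 := lr_mul hl lx
      have h2 := lr_mul lx hl
      rw [hc x hxR] at h1
      have h3 := lr_unique h1 h2 1
      have h4 := congrArg (fun t => t * γ') h3
      simp only [one_mul, mul_one, mul_assoc, hγγ2] at h4
      exact h4
    have hpj : p * qj = qj * p := by
      have h1 := lr_mul hl ly
      have h2 := lr_mul ly hl
      rw [hc y hyR] at h1
      have h3 := lr_unique h1 h2 1
      have h4 := congrArg (fun t => t * γ') h3
      simp only [one_mul, mul_one, mul_assoc, hγγ2] at h4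
      exact h4
    have hγi : γ * qi = qi * γ := by
      have h1 := lr_mul hl lsi
      have h2 := lr_mul lsi hl
      rw [hc si.1 si.2] at h1
      have h3 := lr_unique h1 h2 1
      have h4 := congrArg (fun t => p' * t) h3
      simp only [one_mul, mul_one, ← mul_assoc, hpp1] at h4
      exact h4.symm
    have hγj : γ * qj = qj * γ := by
      have h1 := lr_mul hl lsj
      have h2 := lr_mul lsj hl
      rw [hc sj.1 sj.2] at h1
      have h3 := lr_unique h1 h2 1
      have h4 := congrArg (fun t => p' * t) h3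
      simp only [one_mul, mul_one, ← mul_assoc, hpp1] at h4
      exact h4.symm
    exact h_one r p γ hl (q8_cent p hp hpi hpj) (q8_cent γ hγ hγi hγj)
  unfold Extra
  exact ⟨hzR, hzneg, hcard, hsq, hcomm, hcen⟩

end Cfsg.Agent.Lib.Helper85.S4415
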